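import Mathlib
import Cfsg.Agent.Base
import Cfsg.Agent.Lib.Perm.PrimeDegree
import Cfsg.Agent.Lib.Perm.Half

/-! Two-point stabilizers of doubly transitive groups: small orbits. -/

set_option linter.unusedSectionVars false

namespace H26.Der2

open MulAction Finset

variable {G Ω : Type*} [Group G] [Finite G] [MulAction G Ω] [FaithfulSMul G Ω] [Fintype Ω]
  [DecidableEq Ω]

/-- two-point stabilizer -/
abbrev St (G : Type*) {Ω : Type*} [Group G] [MulAction G Ω] (x y : Ω) : Subgroup G :=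
  stabilizer G x ⊓ stabilizer G y

theorem mem_St {x y : Ω} {g : G} : g ∈ St G x y ↔ g • x = x ∧ g • y = y := Iff.rfl

theorem mem_St_smul {x y : Ω} {g k : G} : g ∈ St G (k • x) (k • y) ↔ k⁻¹ * g * k ∈ St G x y := by
  simp only [mem_St, mul_smul, inv_smul_eq_iff]

theorem eq_one_of (g : G) (h : ∀ x : Ω, g • x = x) : g = 1 :=
  eq_of_smul_eq_smul (α := Ω) fun x => by rw [h, one_smul]

theorem card_St (h2 : IsMultiplyPretransitive G Ω 2) {a b x y : Ω} (hab : a ≠ b) (hxy : x ≠ y) :
    Nat.card (St G x y) = Nat.card (St G a b) := by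
  obtain ⟨k, rfl, rfl⟩ := is_two_pretransitive_iff.1 h2 hab hxy
  refine Nat.card_congr ⟨fun g => ⟨k⁻¹ * g * k, mem_St_smul.1 g.2⟩,
    fun g => ⟨k * g * k⁻¹, mem_St_smul.2 (by simp [mul_assoc])⟩, ?_, ?_⟩
  · intro g; ext; simp [mul_assoc]
  · intro g; ext; simp [mul_assoc]

theorem St_eq_of_le (h2 : IsMultiplyPretransitive G Ω 2) {a b x y : Ω} (hab : a ≠ b) (hxy : x ≠ y)
    (h : St G a b ≤ St G x y) : St G a b = St G x y :=
  Subgroup.eq_of_le_of_card_ge h (card_St h2 hab hxy).le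

open Classical in
/-- the fixed points of a two-point stabilizer -/
noncomputable def L (G : Type*) {Ω : Type*} [Group G] [MulAction G Ω] [Fintype Ω] (x y : Ω) :
    Finset Ω := univ.filter fun w => ∀ g ∈ St G x y, g • w = w

theorem mem_L {x y w : Ω} : w ∈ L G x y ↔ ∀ g ∈ St G x y, g • w = w := by simp [L]

theorem card_L (h2 : IsMultiplyPretransitive G Ω 2) {a b x y : Ω} (hab : a ≠ b) (hxy : x ≠ y) :
    (L G x y).card = (L G a b).card := by
  obtain ⟨k, rfl, rfl⟩ := is_two_pretransitive_iff.1 h2 hab hxy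
  symm
  refine Finset.card_bij (fun w _ => k • w) (fun w hw => ?_) (fun _ _ _ _ h => smul_left_cancel k h)
    fun w hw => ⟨k⁻¹ • w, ?_, by simp⟩
  · rw [mem_L] at hw ⊢
    intro g hg
    have := hw _ (mem_St_smul.1 hg)
    rwa [mul_smul, mul_smul, inv_smul_eq_iff] at this
  · rw [mem_L] at hw ⊢
    intro g hg
    have := hw (k * g * k⁻¹) (mem_St_smul.2 (by simpa [mul_assoc] using hg))
    rw [mul_smul, mul_smul, smul_eq_iff_eq_inv_smul] at this
    exact this

/-- number of fixed points -/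
def fx (Ω : Type*) [MulAction G Ω] [Fintype Ω] [DecidableEq Ω] (g : G) : ℕ :=
  (univ.filter fun x : Ω => g • x = x).card

theorem fx_eq (g : G) : Nat.card (fixedBy Ω g) = fx Ω g := by
  classical
  rw [Nat.card_eq_fintype_card, Fintype.card_subtype, fx]
  congr

theorem fx_mul_le (h2 : IsMultiplyPretransitive G Ω 2) {a b : Ω} (hab : a ≠ b) {h : G} (hh : h ≠ 1) :
    fx Ω h * ((L G a b).card - 1) ≤ Fintype.card Ω - 1 := by
  obtain ⟨z, hz⟩ : ∃ z : Ω, h • z ≠ z := by
    by_contra hc; push Not at hc; exact hh (eq_one_of h hc)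
  have hzL : ∀ x, z ∈ L G z x := fun x => mem_L.2 fun g hg => hg.1
  have h1 : ((univ.filter fun x : Ω => h • x = x).biUnion fun x => (L G z x).erase z).card =
      fx Ω h * ((L G a b).card - 1) := by
    rw [Finset.card_biUnion, fx, Finset.sum_const_nat]
    · intro x hx
      rw [Finset.card_erase_of_mem (hzL x), card_L h2 hab]
      rintro rfl
      exact hz (by simpa using hx)
    · intro x hx y hy hxy
      have hx' : h • x = x := by simpa using hx
      have hy' : h • y = y := by simpa using hy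
      have hzx : z ≠ x := by rintro rfl; exact hz hx'
      have hzy : z ≠ y := by rintro rfl; exact hz hy'
      refine Finset.disjoint_left.2 fun w hw hw' => ?_
      rw [Finset.mem_erase, mem_L] at hw hw'
      have e1 : St G z x = St G z w := St_eq_of_le h2 hzx hw.1.symm fun g hg => ⟨hg.1, hw.2 g hg⟩
      have e2 : St G z y = St G z w := St_eq_of_le h2 hzy hw.1.symm fun g hg => ⟨hg.1, hw'.2 g hg⟩
      have e3 : St G z x = St G x y := St_eq_of_le h2 hzx hxy fun g hg =>
        ⟨hg.2, (show g ∈ St G z y by rw [e2, ← e1]; exact hg).2⟩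
      exact hz (show h ∈ St G z x by rw [e3]; exact ⟨hx', hy'⟩).1
  rw [← h1, ← Finset.card_univ, ← Finset.card_erase_of_mem (Finset.mem_univ z)]
  refine Finset.card_le_card fun w hw => ?_
  obtain ⟨x, -, hx⟩ := Finset.mem_biUnion.1 hw
  simpa using (Finset.mem_erase.1 hx).1

/-- all orbits of the two-point stabilizer have at most two points -/
def Small (G : Type*) {Ω : Type*} [Group G] [MulAction G Ω] (x y : Ω) : Prop :=
  ∀ g ∈ St G x y, ∀ g' ∈ St G x y, ∀ w : Ω, g • w ≠ w → g' • w ≠ w → g • w = g' • w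

theorem Small.transfer (h2 : IsMultiplyPretransitive G Ω 2) {a b x y : Ω} (hab : a ≠ b) (hxy : x ≠ y)
    (h : Small G a b) : Small G x y := by
  obtain ⟨k, rfl, rfl⟩ := is_two_pretransitive_iff.1 h2 hab hxy
  intro g hg g' hg' w h1 h3
  have := h _ (mem_St_smul.1 hg) _ (mem_St_smul.1 hg') (k⁻¹ • w) (by simpa [mul_smul] using h1)
    (by simpa [mul_smul] using h3)
  simpa [mul_smul] using this

theorem Small.mul {x y : Ω} (h : Small G x y) {g g' : G} (hg : g ∈ St G x y) (hg' : g' ∈ St G x y)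
    {w : Ω} (h1 : g • w ≠ w) (h3 : g' • w ≠ w) : (g * g') • w = w := by
  rw [mul_smul, h g' hg' g⁻¹ (Subgroup.inv_mem _ hg) w h3 (fun e => h1 (inv_smul_eq_iff.1 e).symm),
    smul_inv_smul]

theorem Small.sq {x y : Ω} (h : Small G x y) {g : G} (hg : g ∈ St G x y) : g * g = 1 :=
  eq_one_of (Ω := Ω) _ fun w => by
    by_cases e : g • w = w
    · rw [mul_smul, e, e]
    · exact h.mul hg hg e e

theorem Small.comm {x y : Ω} (h : Small G x y) {g g' : G} (hg : g ∈ St G x y) (hg' : g' ∈ St G x y) :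
    g * g' = g' * g := by
  have e1 := eq_inv_of_mul_eq_one_left (h.sq hg)
  have e2 := eq_inv_of_mul_eq_one_left (h.sq hg')
  rw [eq_inv_of_mul_eq_one_left (h.sq (Subgroup.mul_mem _ hg hg')), mul_inv_rev, ← e1, ← e2]

theorem Small.fix (h2 : IsMultiplyPretransitive G Ω 2) {a b : Ω} (hab : a ≠ b) (h : Small G a b)
    (hL : (L G a b).card ≤ 3) {x : Ω} (hx : x ∉ L G a b) {t : G} (ht : t ∈ St G a b) (htx : t • x = x) :
    t = 1 := by
  by_contra ht1
  obtain ⟨y, hy⟩ : ∃ y : Ω, t • y ≠ y := by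
    by_contra hc; push Not at hc; exact ht1 (eq_one_of t hc)
  obtain ⟨s0, hs0, hs0x⟩ : ∃ s ∈ St G a b, s • x ≠ x := by
    by_contra hc; push Not at hc; exact hx (mem_L.2 hc)
  have hxy : x ≠ y := by rintro rfl; exact hy htx
  obtain ⟨t', ht', ht'y, ht'x⟩ : ∃ t' ∈ St G a b, t' • y = y ∧ t' • x ≠ x := by
    by_cases e : s0 • y = y
    · exact ⟨s0, hs0, e, hs0x⟩
    · exact ⟨s0 * t, Subgroup.mul_mem _ hs0 ht, h.mul hs0 ht e hy, by rw [mul_smul, htx]; exact hs0x⟩
  have key : ∀ p ∈ L G a b, ∃ u : G, u ∉ St G a b ∧ u • p = p ∧ u ∈ St G x y ∧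
      ∀ w ∈ L G a b, u • w ∈ L G a b := by
    intro p hp
    have hp' := mem_L.1 hp
    have hpx : p ≠ x := by rintro rfl; exact hx hp
    have hpy : p ≠ y := by rintro rfl; exact hy (hp' t ht)
    have h1 := h.transfer h2 hab hpx
    have h3 := h.transfer h2 hab hpy
    obtain ⟨s, hs, hsH⟩ : ∃ s ∈ St G p x, s ∉ St G a b := by
      by_contra hc
      push Not at hc
      exact hs0x (show s0 ∈ St G p x by rw [St_eq_of_le h2 hpx hab hc]; exact hs0).2
    have htp : t ∈ St G p x := ⟨hp' t ht, htx⟩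
    obtain ⟨u, hu, huH, huy⟩ : ∃ u ∈ St G p x, u ∉ St G a b ∧ u • y = y := by
      by_cases e : s • y = y
      · exact ⟨s, hs, hsH, e⟩
      · exact ⟨s * t, Subgroup.mul_mem _ hs htp, fun e' => hsH (by
          simpa using Subgroup.mul_mem _ e' (Subgroup.inv_mem _ ht)), h1.mul hs htp e hy⟩
    have c1 : ∀ g ∈ St G a b, g • x = x → u * g = g * u := fun g hg e => h1.comm hu ⟨hp' g hg, e⟩
    have c2 : u * t' = t' * u := h3.comm ⟨hu.1, huy⟩ ⟨hp' t' ht', ht'y⟩
    have c3 : ∀ g ∈ St G a b, u * g = g * u := fun g hg => by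
      by_cases e : g • x = x
      · exact c1 g hg e
      · have := c1 _ (Subgroup.mul_mem _ hg ht') (h.mul hg ht' e ht'x)
        rw [← mul_assoc, mul_assoc g, ← c2, ← mul_assoc] at this
        exact mul_right_cancel this
    refine ⟨u, huH, hu.1, ⟨hu.2, huy⟩, fun w hw => mem_L.2 fun g hg => ?_⟩
    rw [← mul_smul, ← c3 g hg, mul_smul, mem_L.1 hw g hg]
  have haL : a ∈ L G a b := mem_L.2 fun g hg => hg.1
  have hbL : b ∈ L G a b := mem_L.2 fun g hg => hg.2
  obtain ⟨u, hu1, hua, hu2, hu3⟩ := key a haL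
  obtain ⟨v, hv1, hvb, hv2, hv3⟩ := key b hbL
  have hub : u • b ≠ b := fun e => hu1 ⟨hua, e⟩
  have hva : v • a ≠ a := fun e => hv1 ⟨e, hvb⟩
  have hub' : u • b ≠ a := fun e => hab (smul_left_cancel u (hua.trans e.symm))
  have hva' : v • a ≠ b := fun e => hab (smul_left_cancel v (e.trans hvb.symm))
  have hL' : ∀ w ∈ L G a b, w = a ∨ w = b ∨ w = u • b := fun w hw => by
    have : ({a, b, u • b} : Finset Ω) = L G a b := Finset.eq_of_subset_of_card_le (by
      intro w hw
      simp only [Finset.mem_insert, Finset.mem_singleton] at hw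
      rcases hw with rfl | rfl | rfl
      exacts [haL, hbL, hu3 _ hbL]) (by
        rw [Finset.card_eq_three.2 ⟨a, b, u • b, hab, hub'.symm, hub.symm, rfl⟩]; exact hL)
    rw [← this] at hw
    simpa using hw
  have e1 : v • a = u • b := ((hL' _ (hv3 a haL)).resolve_left hva).resolve_left hva'
  have e2 := (h.transfer h2 hab hxy).comm hu2 hv2
  have e3 : u • u • b = u • b := by
    conv_lhs => rw [← e1, ← mul_smul, e2, mul_smul, hua, e1]
  exact hub (smul_left_cancel u e3)

theorem three_trans (h2 : IsMultiplyPretransitive G Ω 2) (hn : 5 ≤ Fintype.card Ω) {u : G}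
    (hu : orderOf u = 3) (T : Finset Ω) (hT : T.card ≤ 3) (huT : ∀ w, w ∉ T → u • w = w)
    {a b x y : Ω} (hab : a ≠ b) (hax : a ≠ x) (hbx : b ≠ x) (hay : a ≠ y) (hby : b ≠ y) :
    ∃ g ∈ St G a b, g • x = y := by
  let φ := MulAction.toPermHom G Ω
  have hinj : Function.Injective φ := MulAction.toPerm_injective
  have h3 : (φ u).IsThreeCycle := by
    have ho : orderOf (φ u) = 3 := by rw [orderOf_injective φ hinj, hu]
    have hs : (φ u).support.card ≤ 3 := (Finset.card_le_card fun w hw => by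
      by_contra e; exact (Equiv.Perm.mem_support.1 hw) (huT w e)).trans hT
    have hc : (φ u).IsCycle := Equiv.Perm.isCycle_of_prime_order (ho ▸ Nat.prime_three) (by omega)
    rw [← card_support_eq_three_iff, ← hc.orderOf, ho]
  haveI : IsMultiplyPretransitive φ.range Ω 2 := is_two_pretransitive_iff.2 fun {a b c d} h1 h3 => by
    obtain ⟨g, e1, e2⟩ := is_two_pretransitive_iff.1 h2 h1 h3
    exact ⟨⟨φ g, g, rfl⟩, e1, e2⟩
  have hA := Equiv.Perm.alternatingGroup_le_of_isPreprimitive_of_isThreeCycle_mem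
    (G := φ.range) (isPreprimitive_of_is_two_pretransitive this) h3 ⟨u, rfl⟩
  haveI := alternatingGroup.isMultiplyPretransitive Ω
  have h4 : IsMultiplyPretransitive (alternatingGroup Ω) Ω 3 :=
    isMultiplyPretransitive_of_le (n := Nat.card Ω - 2) (by rw [Nat.card_eq_fintype_card]; omega)
      (Nat.sub_le _ _)
  have inj : ∀ x, a ≠ x → b ≠ x → Function.Injective ![a, b, x] := fun x h1 h2 i j => by
    fin_cases i <;> fin_cases j <;> simp [hab, h1, h2, hab.symm, h1.symm, h2.symm]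
  obtain ⟨σ, hσ⟩ := h4.exists_smul_eq ⟨_, inj x hax hbx⟩ ⟨_, inj y hay hby⟩
  obtain ⟨g, hg⟩ := hA σ.2
  have k : ∀ i, g • ![a, b, x] i = ![a, b, y] i := fun i => by
    have : (σ : Equiv.Perm Ω) (![a, b, x] i) = ![a, b, y] i := DFunLike.congr_fun hσ i
    rw [← this, ← hg]
    rfl
  exact ⟨g, ⟨k 0, k 1⟩, k 2⟩

theorem seven (h2 : IsMultiplyPretransitive G Ω 2) (hn : Fintype.card Ω = 7) (hG : Nat.card G = 84)
    {a b : Ω} (hab : a ≠ b) {h : G} (hh : h ∈ St G a b) : h = 1 := by
  haveI : Fact (Nat.Prime 7) := ⟨by norm_num⟩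
  haveI := isPretransitive_of_is_two_pretransitive (G := G) (α := Ω)
  have hΩ : Nat.card Ω = 7 := by rw [Nat.card_eq_fintype_card, hn]
  obtain ⟨P⟩ : Nonempty (Sylow 7 G) := inferInstance
  obtain ⟨c, e, hP, hce⟩ := H26.exists_frame_sylow hΩ P
  have h1 : (P : Subgroup G).index = 12 := by
    have := (P : Subgroup G).card_mul_index
    rw [H26.card_sylow_prime_degree hΩ P, hG] at this
    omega
  have h3 := P.card_dvd_index
  have h4 := card_sylow_modEq_one 7 G
  rw [h1] at h3
  have h5 : Nat.card (Sylow 7 G) = 1 := by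
    have := Nat.le_of_dvd (by norm_num) h3
    unfold Nat.ModEq at h4
    interval_cases Nat.card (Sylow 7 G) <;> simp_all
  haveI : Subsingleton (Sylow 7 G) := (Nat.card_eq_one_iff_unique.1 h5).1
  have hN : (P : Subgroup G).Normal := Sylow.normal_of_subsingleton P
  obtain ⟨m, d, hm⟩ := H26.affine_of_conj hce (g := h) (by
    rw [← hP]; exact hN.conj_mem c (hP ▸ Subgroup.mem_zpowers c) h)
  obtain ⟨i, rfl⟩ := e.surjective a
  obtain ⟨j, rfl⟩ := e.surjective b
  have e1 := e.injective ((hm i).symm.trans hh.1)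
  have e2 := e.injective ((hm j).symm.trans hh.2)
  have hij : i - j ≠ 0 := sub_ne_zero.2 fun e' => hab (by rw [e'])
  have e3 : m = 1 := mul_right_cancel₀ hij (by linear_combination e1 - e2)
  subst e3
  have e4 : d = 0 := by linear_combination e1
  refine eq_one_of (Ω := Ω) h fun x => ?_
  obtain ⟨k, rfl⟩ := e.surjective x
  rw [hm, e4]; simp

end H26.Der2
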