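import Mathlib
import Cfsg.Agent.Base
import Cfsg.Agent.Lib.Perm.Der2A
import Cfsg.Agent.Lib.Perm75.Derange

/-! Proportion of derangements in transitive groups: the bound `2/n`. -/

set_option linter.unusedSectionVars false

namespace H26.Der2

open MulAction Finset

variable {G Ω : Type*} [Group G] [Fintype G] [MulAction G Ω] [FaithfulSMul G Ω] [Fintype Ω]
  [DecidableEq Ω]

theorem sum_fx (H : Subgroup G) [Fintype H] :
    ∑ h : H, fx Ω (h : G) = ∑ x : Ω, Nat.card (stabilizer H x) := by
  classical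
  simp only [fx, Finset.card_filter]
  rw [Finset.sum_comm]
  refine Finset.sum_congr rfl fun x _ => ?_
  rw [Nat.card_eq_fintype_card, Fintype.card_subtype, Finset.card_filter]
  rfl

theorem small_of (h2 : IsMultiplyPretransitive G Ω 2) (hn : 7 ≤ Fintype.card Ω) {a b : Ω} (hab : a ≠ b)
    [Fintype (St G a b)]
    (h : (Fintype.card Ω + (L G a b).card) * Nat.card (St G a b) <
      2 * ∑ h : St G a b, fx Ω (h : G) + 2 * Nat.card (St G a b)) : Small G a b := by
  classical
  set H := St G a b with hH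
  set m := Nat.card H with hm
  let s : Ω → ℕ := fun x => (orbit H x).ncard
  let w : Ω → ℕ := fun x => Nat.card (stabilizer H x)
  have hws : ∀ x, w x * s x = m := fun x => by
    have := (stabilizer H x).card_mul_index
    rwa [index_stabilizer] at this
  have hs1 : ∀ x, x ∈ L G a b → s x = 1 := fun x hx => by
    have : orbit H x = {x} := by
      ext y
      constructor
      · rintro ⟨g, rfl⟩; exact mem_L.1 hx g g.2
      · rintro rfl; exact mem_orbit_self _
    simp only [s, this, Set.ncard_singleton]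
  have hs2 : ∀ x, x ∉ L G a b → 2 ≤ s x := fun x hx => by
    obtain ⟨g, hg, hgx⟩ : ∃ g ∈ H, g • x ≠ x := by
      by_contra hc; push Not at hc; exact hx (mem_L.2 hc)
    rw [← Set.ncard_pair hgx]
    refine Set.ncard_le_ncard ?_
    rintro _ (rfl | rfl)
    · exact ⟨⟨g, hg⟩, rfl⟩
    · exact mem_orbit_self _
  have hso : ∀ x y, y ∈ orbit H x → s y = s x := fun x y hy => by
    simp only [s, orbit_eq_iff.2 hy]
  let e : Ω → ℤ := fun x => m + (if x ∈ L G a b then (m : ℤ) else 0) - 2 * w x
  have he0 : ∀ x, 0 ≤ e x := fun x => by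
    have h1 := hws x
    simp only [e]
    split_ifs with hx
    · rw [hs1 x hx] at h1; omega
    · have := hs2 x hx
      have : w x * 2 ≤ w x * s x := Nat.mul_le_mul_left _ this
      omega
  have he1 : ∀ x, (m : ℤ) - 2 * w x ≤ e x := fun x => by
    simp only [e]; split_ifs <;> omega
  have hsum : ∑ x, e x < 2 * m := by
    simp only [e, Finset.sum_sub_distrib, Finset.sum_add_distrib, Finset.sum_const, Finset.card_univ,
      Finset.sum_ite_mem, Finset.univ_inter, ← Finset.mul_sum, nsmul_eq_mul]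
    rw [sum_fx] at h
    have : ((Fintype.card Ω + (L G a b).card) * m : ℤ) < 2 * ∑ x, (w x : ℤ) + 2 * m := by
      exact_mod_cast h
    linarith
  have hsub : ∀ (T : Finset Ω) (c : ℕ), (∀ x ∈ T, (m : ℤ) ≤ c * e x) → T.card < 2 * c ∨ c = 0 := by
    intro T c hT
    rcases Nat.eq_zero_or_pos c with h0 | h0
    · exact Or.inr h0
    left
    have h1 : (T.card * m : ℤ) ≤ c * ∑ x, e x := by
      calc (T.card * m : ℤ) = ∑ _x ∈ T, (m : ℤ) := by simp
        _ ≤ ∑ x ∈ T, c * e x := Finset.sum_le_sum hT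
        _ = c * ∑ x ∈ T, e x := by rw [Finset.mul_sum]
        _ ≤ _ := mul_le_mul_of_nonneg_left (Finset.sum_le_sum_of_subset_of_nonneg (Finset.subset_univ _)
            fun x _ _ => he0 x) (by positivity)
    have h3 : (0 : ℤ) < m := by exact_mod_cast Nat.card_pos
    have h4 : (0 : ℤ) < c := by exact_mod_cast h0
    have h5 : (T.card : ℤ) < 2 * c := by nlinarith
    exact_mod_cast h5
  have hs4 : ∀ x, s x ≤ 3 := fun x => by
    by_contra hc
    have := hsub (orbit H x).toFinset 2 (fun y hy => by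
      have h1 := hws y
      rw [hso x y (by simpa using hy)] at h1
      have h3 : w y * 4 ≤ w y * s x := Nat.mul_le_mul_left _ (by omega)
      have := he1 y
      omega)
    rw [← Set.ncard_eq_toFinset_card'] at this
    change s x < 4 ∨ _ at this
    omega
  let T : Finset Ω := univ.filter fun x => s x = 3
  have hT6 : T.card < 6 := by
    have := hsub T 3 (fun y hy => by
      have h1 := hws y
      rw [show s y = 3 by simpa [T] using hy] at h1
      have := he1 y
      omega)
    omega
  have hT3 : 3 ∣ T.card := by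
    have := H26.Half.dvd_card_of_orbits_on (A := H) (T : Set Ω) (fun g x hx => by
      have : s (g • x) = s x := hso _ _ (mem_orbit x g)
      simpa [T, this] using hx) 3 (fun x hx => by
        rw [Nat.card_coe_set_eq]; exact (Finset.mem_filter.1 hx).2)
    simpa using this
  have hs3 : ∀ x, s x ≤ 2 := fun x => by
    by_contra hc
    have hx3 : s x = 3 := by have := hs4 x; omega
    haveI : Fact (Nat.Prime 3) := ⟨Nat.prime_three⟩
    obtain ⟨u, hu⟩ := exists_prime_orderOf_dvd_card' (G := H) 3 ⟨w x, by rw [← hm, ← hws x, hx3, mul_comm]⟩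
    have hu3 : u ^ 3 = 1 := by rw [← hu, pow_orderOf_eq_one]
    have hxL : x ∉ L G a b := fun e => by have := hs1 x e; omega
    have hxa : a ≠ x := by rintro rfl; exact hxL (mem_L.2 fun g hg => hg.1)
    have hxb : b ≠ x := by rintro rfl; exact hxL (mem_L.2 fun g hg => hg.2)
    have h3 : ((univ.erase a).erase b : Set Ω) ⊆ orbit H x := fun y hy => by
      have hy' : y ≠ b ∧ y ≠ a := by simpa [and_comm] using hy
      obtain ⟨g, hg, e⟩ := three_trans h2 (by omega) (u := (u : G)) (by rw [Subgroup.orderOf_coe, hu]) T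
        (by omega) (fun y hy => by
          have h1 : s y ≤ 2 := by
            have := hs4 y
            have : s y ≠ 3 := by simpa [T] using hy
            omega
          have h4 : (stabilizer H y).index = 1 ∨ (stabilizer H y).index = 2 := by
            have h5 : (stabilizer H y).index = s y := index_stabilizer _ _
            have h6 : (stabilizer H y).index ≠ 0 := Subgroup.FiniteIndex.index_ne_zero
            omega
          have h5 : u * u ∈ stabilizer H y := by
            rcases h4 with h4 | h4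
            · rw [Subgroup.index_eq_one.1 h4]; trivial
            · exact Subgroup.mul_self_mem_of_index_two h4 u
          have h6 := Subgroup.mul_mem _ h5 h5
          rw [show u * u * (u * u) = u ^ 3 * u by simp [pow_succ, mul_assoc], hu3, one_mul] at h6
          exact h6) hab hxa hxb hy'.2.symm hy'.1.symm
      exact ⟨⟨g, hg⟩, e⟩
    have h4 := Set.ncard_le_ncard h3
    rw [Set.ncard_coe_finset, Finset.card_erase_of_mem (by simpa using hab.symm),
      Finset.card_erase_of_mem (Finset.mem_univ _), Finset.card_univ] at h4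
    change _ ≤ s x at h4
    omega
  intro g hg g' hg' x h1 h3
  by_contra hne
  have h4 : ({x, g • x, g' • x} : Set Ω) ⊆ orbit H x := by
    rintro _ (rfl | rfl | rfl)
    · exact mem_orbit_self _
    · exact ⟨⟨g, hg⟩, rfl⟩
    · exact ⟨⟨g', hg'⟩, rfl⟩
  have h5 := Set.ncard_le_ncard h4
  rw [Set.ncard_eq_three.2 ⟨_, _, _, h1.symm, h3.symm, hne, rfl⟩] at h5
  have := hs3 x
  change _ ≤ s x at h5
  omega

theorem fx_one : fx Ω (1 : G) = Fintype.card Ω := by simp [fx]

theorem card_G (h2 : IsMultiplyPretransitive G Ω 2) {a b : Ω} (hab : a ≠ b) :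
    Nat.card G = Fintype.card Ω * (Fintype.card Ω - 1) * Nat.card (St G a b) := by
  classical
  have e : stabilizer G (a, b) = St G a b := by ext g; simp [Prod.ext_iff]
  have h1 := (stabilizer G (a, b)).card_mul_index
  have h3 : orbit G (a, b) = (univ : Finset Ω).offDiag := by
    ext ⟨x, y⟩
    simp only [Finset.coe_offDiag, Set.mem_offDiag, Finset.coe_univ, Set.mem_univ, true_and]
    constructor
    · rintro ⟨g, hg⟩
      obtain ⟨rfl, rfl⟩ := Prod.ext_iff.1 hg
      simpa using hab
    · intro h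
      obtain ⟨g, rfl, rfl⟩ := is_two_pretransitive_iff.1 h2 hab h
      exact ⟨g, rfl⟩
  rw [index_stabilizer, h3, Set.ncard_coe_finset, Finset.offDiag_card, Finset.card_univ, e] at h1
  rw [← h1, Nat.mul_sub_one, mul_comm]

theorem ineq (h2 : IsMultiplyPretransitive G Ω 2) (hn : 7 ≤ Fintype.card Ω) {a b : Ω} (hab : a ≠ b)
    [Fintype (St G a b)] (hm : St G a b ≠ ⊥) :
    (2 * Nat.card (St G a b) : ℚ) ≤ ∑ h : St G a b, (Fintype.card Ω : ℚ) / fx Ω (h : G) := by
  classical
  have hG := card_G h2 hab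
  have hsm := small_of h2 hn hab
  have hmul := fun (h : G) (hh : h ≠ 1) => fx_mul_le h2 hab hh
  set n := Fintype.card Ω with hn'
  set m := Nat.card (St G a b) with hm'
  have hm2 : 2 ≤ m := (Subgroup.one_lt_card_iff_ne_bot _).2 hm
  have hf2 : ∀ h : (St G a b), 2 ≤ fx Ω (h : G) := fun h => by
    rw [← Finset.card_pair hab]
    refine Finset.card_le_card fun x hx => ?_
    simp only [Finset.mem_insert, Finset.mem_singleton] at hx
    rcases hx with rfl | rfl
    · simpa using h.2.1
    · simpa using h.2.2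
  have hfpos : ∀ h : (St G a b), (0 : ℚ) < fx Ω (h : G) := fun h => by
    have := hf2 h; exact_mod_cast (by omega : 0 < fx Ω (h : G))
  have hL2 : 2 ≤ (L G a b).card := by
    rw [← Finset.card_pair hab]
    refine Finset.card_le_card fun x hx => ?_
    simp only [Finset.mem_insert, Finset.mem_singleton] at hx
    rcases hx with rfl | rfl
    · exact mem_L.2 fun g hg => hg.1
    · exact mem_L.2 fun g hg => hg.2
  have hnq : (7 : ℚ) ≤ n := by exact_mod_cast hn
  have hmq : (2 : ℚ) ≤ m := by exact_mod_cast hm2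
  have hcard : ((univ : Finset (St G a b)).erase 1).card = m - 1 := by
    rw [Finset.card_erase_of_mem (Finset.mem_univ _), Finset.card_univ, hm', Nat.card_eq_fintype_card]
  have hcardq : (((univ : Finset (St G a b)).erase 1).card : ℚ) = m - 1 := by
    rw [hcard, Nat.cast_sub (by omega)]; simp
  have hsplit : ∑ h : (St G a b), (n : ℚ) / fx Ω (h : G) = 1 + ∑ h ∈ (univ : Finset (St G a b)).erase 1, (n : ℚ) / fx Ω (h : G) := by
    rw [← Finset.add_sum_erase _ _ (Finset.mem_univ (1 : (St G a b))), Subgroup.coe_one, fx_one,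
      div_self (by linarith)]
  have hB : ∀ c : ℚ, (∀ h : (St G a b), h ≠ 1 → c * fx Ω (h : G) ≤ n) → 2 * m ≤ 1 + (m - 1) * c →
      (2 * m : ℚ) ≤ ∑ h : (St G a b), (n : ℚ) / fx Ω (h : G) := fun c hc h1 => by
    rw [hsplit]
    have : (m - 1) * c ≤ ∑ h ∈ (univ : Finset (St G a b)).erase 1, (n : ℚ) / fx Ω (h : G) := by
      rw [← hcardq, ← nsmul_eq_mul]
      exact Finset.card_nsmul_le_sum _ _ _ fun h hh =>
        (le_div_iff₀ (hfpos h)).2 (hc h (Finset.ne_of_mem_erase hh))
    linarith
  set S := ∑ h : (St G a b), fx Ω (h : G) with hS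
  by_cases hJ0 : 2 * S ≤ n * m
  · have h1 : ∑ h : (St G a b), (4 - 4 * (fx Ω (h : G) : ℚ) / n) ≤ ∑ h : (St G a b), (n : ℚ) / fx Ω (h : G) :=
      Finset.sum_le_sum fun h _ => by
        have := hfpos h
        rw [le_div_iff₀ this, sub_mul, div_mul_eq_mul_div, sub_le_iff_le_add, ← sub_le_iff_le_add',
          le_div_iff₀ (by linarith)]
        nlinarith [sq_nonneg ((n : ℚ) - 2 * fx Ω (h : G))]
    have h3 : (2 * S : ℚ) ≤ n * m := by exact_mod_cast hJ0
    rw [Finset.sum_sub_distrib, ← Finset.sum_div, ← Finset.mul_sum, ← Nat.cast_sum, ← hS,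
      Finset.sum_const, Finset.card_univ, ← Nat.card_eq_fintype_card, ← hm', nsmul_eq_mul] at h1
    have h4 : 4 * (S : ℚ) / n ≤ 2 * m := by rw [div_le_iff₀ (by linarith)]; linarith
    linarith
  by_cases hL4 : 4 ≤ (L G a b).card
  · refine hB 3 (fun h hh => ?_) (by linarith)
    have h1 := hmul h (fun e => hh (Subtype.ext e))
    have h3 : fx Ω (h : G) * 3 ≤ fx Ω (h : G) * ((L G a b).card - 1) := Nat.mul_le_mul_left _ (by omega)
    exact_mod_cast (by omega : 3 * fx Ω (h : G) ≤ n)
  by_cases hA : (L G a b).card = 3 ∧ 2 * S ≤ (n + 1) * m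
  · by_cases hbig : n + 1 ≤ 2 * m
    · have hbq : (n + 1 : ℚ) ≤ 2 * m := by exact_mod_cast hbig
      refine hB (2 * n / (n - 1)) (fun h hh => ?_) ?_
      · have h1 := hmul h (fun e => hh (Subtype.ext e))
        rw [hA.1] at h1
        have h3 : (fx Ω (h : G) * 2 + 1 : ℚ) ≤ n := by exact_mod_cast (by omega : fx Ω (h : G) * 2 + 1 ≤ n)
        rw [div_mul_eq_mul_div, div_le_iff₀ (by linarith)]
        nlinarith
      · rw [← mul_div_assoc, ← sub_le_iff_le_add', le_div_iff₀ (by linarith)]
        nlinarith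
    · have hbq : (2 * m : ℚ) ≤ n + 1 := by exact_mod_cast (by omega : 2 * m ≤ n + 1)
      have h1 := Finset.sq_sum_div_le_sum_sq_div ((univ : Finset (St G a b)).erase 1) (fun _ => (1 : ℚ))
        (g := fun h => (fx Ω (h : G) : ℚ)) (fun h _ => hfpos h)
      have h3 : ∑ h ∈ (univ : Finset (St G a b)).erase 1, (fx Ω (h : G) : ℚ) = S - n := by
        rw [hS, Nat.cast_sum, ← Finset.add_sum_erase _ _ (Finset.mem_univ (1 : (St G a b))), Subgroup.coe_one,
          fx_one]
        ring
      have h4 : (0 : ℚ) < S - n := by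
        rw [← h3]
        exact Finset.sum_pos (fun h _ => hfpos h) (Finset.card_pos.1 (by omega))
      rw [h3, Finset.sum_const, nsmul_eq_mul, hcardq, mul_one] at h1
      have h5 : ∑ h ∈ (univ : Finset (St G a b)).erase 1, (n : ℚ) / fx Ω (h : G) =
          n * ∑ h ∈ (univ : Finset (St G a b)).erase 1, (1 : ℚ) ^ 2 / fx Ω (h : G) := by
        rw [Finset.mul_sum]; exact Finset.sum_congr rfl fun h _ => by ring
      have h6 : (2 * S : ℚ) ≤ (n + 1) * m := by exact_mod_cast hA.2
      have h7 : (2 * m - 1 : ℚ) ≤ n * ((m - 1) ^ 2 / (S - n)) := by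
        rw [← mul_div_assoc, le_div_iff₀ h4]
        nlinarith
      rw [hsplit, h5]
      nlinarith
  have hS' : Small G a b := hsm (by
    rcases (by omega : (L G a b).card = 2 ∨ (L G a b).card = 3) with e | e
    · rw [e]; nlinarith
    · have : (n + 1) * m < 2 * S := Nat.lt_of_not_le fun h => hA ⟨e, h⟩
      rw [e]; nlinarith)
  have hfix := fun x hx t ht => hS'.fix h2 hab (by omega) (x := x) hx (t := t) ht
  have hfL : ∀ h : (St G a b), h ≠ 1 → fx Ω (h : G) ≤ (L G a b).card := fun h hh =>
    Finset.card_le_card fun x hx => by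
      by_contra e
      exact hh (Subtype.ext (hfix x e h h.2 (by simpa using hx)))
  by_cases h9 : 3 * (L G a b).card ≤ n
  · refine hB 3 (fun h hh => ?_) (by linarith)
    have := hfL h hh
    exact_mod_cast (by omega : 3 * fx Ω (h : G) ≤ n)
  exfalso
  have hL3 : (L G a b).card = 3 := by omega
  have hst : ∀ x, x ∉ L G a b → Nat.card (orbit (St G a b) x) = m := fun x hx => by
    have : stabilizer (St G a b) x = ⊥ := (Subgroup.eq_bot_iff_forall _).2
      (fun t ht => Subtype.ext (hfix x hx t t.2 ht))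
    rw [Nat.card_coe_set_eq, ← index_stabilizer, this, Subgroup.index_bot]
  have hdvd : m ∣ n - 3 := by
    have := H26.Half.dvd_card_of_orbits_on (A := (St G a b)) ((L G a b)ᶜ : Finset Ω) (fun g x hx => by
      simp only [Finset.coe_compl, Set.mem_compl_iff, Finset.mem_coe] at hx ⊢
      intro e
      apply hx
      have := mem_L.1 e _ ((St G a b).inv_mem g.2)
      change (g : G)⁻¹ • (g : G) • x = (g : G) • x at this
      rw [inv_smul_smul] at this
      rw [this]; exact e) m (fun x hx => hst x (by simpa using hx))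
    rwa [Nat.card_coe_set_eq, Set.ncard_coe_finset, Finset.card_compl, hL3] at this
  obtain ⟨x, hx⟩ : ∃ x, x ∉ L G a b := by
    by_contra hc
    push Not at hc
    rw [Finset.eq_univ_of_forall hc, Finset.card_univ] at hL3
    omega
  have hm3 : m ≤ 2 := by
    obtain ⟨g, hg, hgx⟩ : ∃ g ∈ (St G a b), g • x ≠ x := by
      by_contra hc; push Not at hc; exact hx (mem_L.2 hc)
    rw [← hst x hx, Nat.card_coe_set_eq, ← Set.ncard_pair hgx]
    refine Set.ncard_le_ncard ?_
    rintro _ ⟨g', rfl⟩
    by_cases e : (g' : G) • x = x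
    · exact Or.inr e
    · exact Or.inl (hS' _ g'.2 _ hg x e hgx)
  have hm4 : m = 2 := by omega
  rw [hm4] at hdvd hG
  have hn7 : n = 7 := by omega
  obtain ⟨⟨h, hh⟩, hh1⟩ := Subgroup.ne_bot_iff_exists_ne_one.1 hm
  exact hh1 (Subtype.ext (seven h2 hn7 (by rw [hG, hn7]) hab hh))

theorem sum_pairs (h2 : IsMultiplyPretransitive G Ω 2) {a b : Ω} (hab : a ≠ b) [Fintype (St G a b)]
    (φ : G → ℚ) (hφ : ∀ g k : G, φ (k * g * k⁻¹) = φ g) :
    ∑ g : G, (fx Ω g : ℚ) * (fx Ω g - 1) * φ g =
      Fintype.card Ω * (Fintype.card Ω - 1) * ∑ h : St G a b, φ h := by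
  classical
  have h1 : ∀ g : G, (fx Ω g : ℚ) * (fx Ω g - 1) * φ g =
      ∑ p ∈ (univ : Finset Ω).offDiag, if g ∈ St G p.1 p.2 then φ g else 0 := fun g => by
    rw [← Finset.sum_filter, Finset.sum_const, nsmul_eq_mul]
    congr 1
    have : (univ : Finset Ω).offDiag.filter (fun p => g ∈ St G p.1 p.2) =
        (univ.filter fun x : Ω => g • x = x).offDiag := by
      ext p; simp [Finset.mem_offDiag]; tauto
    rw [this, Finset.offDiag_card, Nat.cast_sub (Nat.le_mul_self _)]
    simp only [fx]; push_cast; ring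
  have h3 : ∀ p ∈ (univ : Finset Ω).offDiag,
      (∑ g : G, if g ∈ St G p.1 p.2 then φ g else 0) = ∑ h : St G a b, φ h := fun p hp => by
    obtain ⟨k, e1, e2⟩ := is_two_pretransitive_iff.1 h2 hab (Finset.mem_offDiag.1 hp).2.2
    rw [← e1, ← e2, ← Equiv.sum_comp (MulAut.conj k).toEquiv, ← Finset.sum_filter]
    refine Eq.trans (Finset.sum_congr rfl fun g _ => hφ g k) ?_
    refine Finset.sum_subtype _ (fun g => ?_) φ
    simp [mul_smul]
  rw [Finset.sum_congr rfl fun g _ => h1 g, Finset.sum_comm, Finset.sum_congr rfl h3, Finset.sum_const,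
    Finset.offDiag_card, Finset.card_univ, nsmul_eq_mul, Nat.cast_sub (Nat.le_mul_self _)]
  push_cast; ring

theorem fx_conj (g k : G) : fx Ω (k * g * k⁻¹) = fx Ω g := by
  symm
  refine Finset.card_bij (fun w _ => k • w) (fun w hw => ?_) (fun _ _ _ _ h => smul_left_cancel k h)
    fun w hw => ⟨k⁻¹ • w, ?_, by simp⟩
  · simpa [mul_smul] using hw
  · simp only [Finset.mem_filter, Finset.mem_univ, true_and] at hw ⊢
    rw [mul_smul, mul_smul, smul_eq_iff_eq_inv_smul] at hw
    exact hw

theorem identity (htr : IsPretransitive G Ω) [Nonempty Ω] :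
    (Fintype.card Ω * Nat.card {g : G // ∀ ω : Ω, g • ω ≠ ω} : ℚ) =
      (Nat.card (orbitRel.Quotient G (Ω × Ω)) - 1) * Nat.card G +
        ∑ g : G, (fx Ω g : ℚ) * (fx Ω g - 1) * (Fintype.card Ω / fx Ω g - 1) := by
  classical
  have h1 := H75.sum_card_fixedBy G Ω
  have h2 := H75.sum_card_fixedBy G (Ω × Ω)
  rw [H75.card_orbits_eq_one htr, one_mul] at h1
  simp only [H75.card_fixedBy_prod] at h2
  simp only [fx_eq] at h1 h2
  have h1' : ∑ g : G, (fx Ω g : ℚ) = Nat.card G := by exact_mod_cast h1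
  have h2' : ∑ g : G, (fx Ω g : ℚ) * fx Ω g = Nat.card (orbitRel.Quotient G (Ω × Ω)) * Nat.card G := by
    exact_mod_cast h2
  have h3 : (Nat.card {g : G // ∀ ω : Ω, g • ω ≠ ω} : ℚ) = ∑ g : G, if fx Ω g = 0 then 1 else 0 := by
    rw [Finset.sum_boole, Nat.card_eq_fintype_card, Fintype.card_subtype]
    congr 2
    ext g
    simp [fx]
  have h4 : ∀ g : G, (Fintype.card Ω : ℚ) * (if fx Ω g = 0 then 1 else 0) =
      fx Ω g * fx Ω g - (Fintype.card Ω + 1) * fx Ω g + Fintype.card Ω +
        (fx Ω g : ℚ) * (fx Ω g - 1) * (Fintype.card Ω / fx Ω g - 1) := fun g => by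
    split_ifs with h
    · simp [h]
    · have : (fx Ω g : ℚ) ≠ 0 := by exact_mod_cast h
      field_simp
      ring
  rw [h3, Finset.mul_sum, Finset.sum_congr rfl fun g _ => h4 g, Finset.sum_add_distrib,
    Finset.sum_add_distrib, Finset.sum_sub_distrib, ← Finset.mul_sum, h1', h2', Finset.sum_const,
    Finset.card_univ, ← Nat.card_eq_fintype_card (α := G), nsmul_eq_mul]
  ring

theorem term_nonneg (g : G) :
    0 ≤ (fx Ω g : ℚ) * (fx Ω g - 1) * (Fintype.card Ω / fx Ω g - 1) := by
  rcases Nat.eq_zero_or_pos (fx Ω g) with h | h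
  · simp [h]
  · have h1 : (1 : ℚ) ≤ fx Ω g := by exact_mod_cast h
    have h2 : (fx Ω g : ℚ) ≤ Fintype.card Ω := by exact_mod_cast Finset.card_le_univ _
    have h3 : (1 : ℚ) ≤ Fintype.card Ω / fx Ω g := by rw [le_div_iff₀ (by linarith)]; linarith
    exact mul_nonneg (mul_nonneg (by linarith) (by linarith)) (by linarith)

end H26.Der2
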