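import Mathlib
import Cfsg.Agent.Base

/-! Subgroups inducing at least the alternating group on an invariant set. -/

set_option autoImplicit false
set_option linter.unusedSectionVars false

namespace H26.Knapp

open MulAction Subgroup
open scoped Pointwise commutatorElement Classical

theorem eq_one_of_comm {α : Type*} [Fintype α] [DecidableEq α] (h5 : 5 ≤ Nat.card α)
    {σ : Equiv.Perm α} (h : ∀ τ ∈ alternatingGroup α, τ * σ = σ * τ) : σ = 1 := by
  by_contra hne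
  have hσ : σ ∈ centralizer (alternatingGroup α : Set (Equiv.Perm α)) := h
  have : Nontrivial (centralizer (alternatingGroup α : Set (Equiv.Perm α))) :=
    ⟨⟨σ, hσ⟩, 1, fun e => hne (congrArg Subtype.val e)⟩
  have h1 := Equiv.Perm.alternatingGroup_le_of_normal h5 this
  have h2 : IsMulCommutative (alternatingGroup α) :=
    ⟨⟨fun x y => Subtype.ext (h1 y.2 x x.2)⟩⟩
  have := alternatingGroup.isMulCommutative_iff_card_le_three.1 h2
  omega

theorem alt_le_of_nz {α : Type*} [Fintype α] [DecidableEq α] (h5 : 5 ≤ Nat.card α)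
    {N : Subgroup (Equiv.Perm α)} (hn : ∀ τ ∈ alternatingGroup α, ∀ σ ∈ N, τ * σ * τ⁻¹ ∈ N)
    (hN : N ≠ ⊥) : alternatingGroup α ≤ N := by
  have : (N.subgroupOf (alternatingGroup α)).Normal := ⟨fun x hx g => hn g g.2 x hx⟩
  rcases alternatingGroup.normal_subgroup_eq_bot_or_eq_top h5 (N := N.subgroupOf (alternatingGroup α))
    with h | h
  · exfalso
    apply hN
    rw [eq_bot_iff]
    intro σ hσ
    rw [mem_bot]
    apply eq_one_of_comm h5
    intro τ hτ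
    have h1 : τ * σ * τ⁻¹ * σ⁻¹ ∈ alternatingGroup α := by
      have := (inferInstance : (alternatingGroup α).Normal).conj_mem τ⁻¹ (inv_mem hτ) σ
      have := mul_mem hτ this
      simpa [mul_assoc] using this
    have h2 : (⟨_, h1⟩ : alternatingGroup α) ∈ N.subgroupOf (alternatingGroup α) :=
      mul_mem (hn τ hτ σ hσ) (inv_mem hσ)
    rw [h, mem_bot] at h2
    have h3 : τ * σ * τ⁻¹ * σ⁻¹ = 1 := congrArg Subtype.val h2
    calc τ * σ = τ * σ * τ⁻¹ * σ⁻¹ * (σ * τ) := by group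
      _ = σ * τ := by rw [h3, one_mul]
  · exact subgroupOf_eq_top.1 h

variable {G Ω : Type*} [Group G] [MulAction G Ω]

/-- `H` normalises `N` -/
def Nz (H N : Subgroup G) : Prop := ∀ h ∈ H, ∀ n ∈ N, h * n * h⁻¹ ∈ N

theorem Nz.inf {H N₁ N₂ : Subgroup G} (h1 : Nz H N₁) (h2 : Nz H N₂) : Nz H (N₁ ⊓ N₂) :=
  fun h hh n hn => ⟨h1 h hh n hn.1, h2 h hh n hn.2⟩

theorem Nz.mono {H H' N : Subgroup G} (h1 : Nz H N) (h2 : H' ≤ H) : Nz H' N :=
  fun h hh n hn => h1 h (h2 hh) n hn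

theorem Nz.self (H : Subgroup G) : Nz H H :=
  fun _ hh _ hn => mul_mem (mul_mem hh hn) (inv_mem hh)

theorem Nz.le_normalizer [Finite G] {H N : Subgroup G} (h : Nz H N) : H ≤ normalizer (N : Set G) := by
  rw [le_normalizer_iff]
  intro g hg x hx
  exact h g hg x hx

theorem Nz.commutator_le {H N₁ N₂ : Subgroup G} (h1 : Nz H N₁) (h2 : Nz H N₂) (l1 : N₁ ≤ H)
    (l2 : N₂ ≤ H) : ⁅N₁, N₂⁆ ≤ N₁ ⊓ N₂ := by
  rw [Subgroup.commutator_le]
  intro x hx y hy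
  refine ⟨?_, ?_⟩
  · have := mul_mem hx (h1 y (l2 hy) x⁻¹ (inv_mem hx))
    simpa [commutatorElement_def, mul_assoc] using this
  · exact N₂.mul_mem (h2 x (l1 hx) y hy) (N₂.inv_mem hy)

theorem mem_fix {Γ : Set Ω} {g : G} : g ∈ fixingSubgroup G Γ ↔ ∀ y ∈ Γ, g • y = y :=
  mem_fixingSubgroup_iff G

theorem mem_stab [Finite Ω] {Γ : Set Ω} {g : G} (h : ∀ y ∈ Γ, g • y ∈ Γ) : g ∈ stabilizer G Γ := by
  rw [mem_stabilizer_iff]
  apply Set.eq_of_subset_of_ncard_le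
  · rintro _ ⟨y, hy, rfl⟩; exact h y hy
  · rw [Set.ncard_smul_set]
  · exact Set.toFinite _

theorem smul_mem_of_stab {Γ : Set Ω} {g : G} (h : g ∈ stabilizer G Γ) {y : Ω} (hy : y ∈ Γ) :
    g • y ∈ Γ := by
  rw [← mem_stabilizer_iff.1 h]; exact Set.smul_mem_smul_set hy

theorem nz_fix {Γ : Set Ω} {H : Subgroup G} (h : H ≤ stabilizer G Γ) : Nz H (fixingSubgroup G Γ) := by
  intro g hg n hn
  rw [mem_fix] at hn ⊢
  intro y hy
  rw [mul_smul, mul_smul, hn _ (smul_mem_of_stab (inv_mem (h hg)) hy), smul_inv_smul]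

/-- the permutation representation on `Γ` -/
def rho (G : Type*) [Group G] [MulAction G Ω] (Γ : Set Ω) : stabilizer G Γ →* Equiv.Perm Γ :=
  toPermHom (stabilizer G Γ) Γ

theorem rho_apply (Γ : Set Ω) (g : stabilizer G Γ) (y : Γ) : (rho G Γ g y : Ω) = (g : G) • (y : Ω) := rfl

theorem rho_eq_one {Γ : Set Ω} {g : stabilizer G Γ} : rho G Γ g = 1 ↔ (g : G) ∈ fixingSubgroup G Γ := by
  rw [mem_fix]
  constructor
  · intro h y hy
    have := rho_apply Γ g ⟨y, hy⟩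
    rw [h] at this
    exact this.symm
  · intro h
    ext y
    exact h y y.2

/-- the group induced on `Γ` -/
def img (H : Subgroup G) (Γ : Set Ω) : Subgroup (Equiv.Perm Γ) :=
  (H.subgroupOf (stabilizer G Γ)).map (rho G Γ)

theorem card_img {H : Subgroup G} {Γ : Set Ω} (h : H ≤ stabilizer G Γ) :
    Nat.card (img H Γ) = (fixingSubgroup G Γ).relIndex H := by
  have : (rho G Γ).ker = (fixingSubgroup G Γ).subgroupOf (stabilizer G Γ) := by
    ext g; rw [MonoidHom.mem_ker, rho_eq_one, mem_subgroupOf]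
  rw [img, ← relIndex_ker, this, relIndex_subgroupOf h]

variable [Finite Ω]

theorem relIndex_le {H : Subgroup G} {Γ : Set Ω} (h : H ≤ stabilizer G Γ) :
    (fixingSubgroup G Γ).relIndex H ≤ (Γ.ncard).factorial := by
  rw [← card_img h, ← Nat.card_coe_set_eq, ← Nat.card_perm]
  exact Subgroup.card_le_card_group _

theorem relIndex_pos {H : Subgroup G} {Γ : Set Ω} (h : H ≤ stabilizer G Γ) :
    0 < (fixingSubgroup G Γ).relIndex H := by
  rw [← card_img h]; exact Nat.card_pos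

/-- `H` stabilises `Γ` and induces at least the alternating group on it -/
def Alt (H : Subgroup G) (Γ : Set Ω) : Prop :=
  H ≤ stabilizer G Γ ∧ (Γ.ncard).factorial ≤ 2 * (fixingSubgroup G Γ).relIndex H

noncomputable instance fintypeSet (Γ : Set Ω) : Fintype Γ := Fintype.ofFinite Γ

theorem Alt.le_img {H : Subgroup G} {Γ : Set Ω} (h : Alt H Γ) : alternatingGroup Γ ≤ img H Γ := by
  apply Equiv.Perm.alternatingGroup_le_of_index_le_two
  have h1 := (img H Γ).card_mul_index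
  have h2 := h.2
  rw [← card_img h.1, ← Nat.card_coe_set_eq, ← Nat.card_perm, ← h1, mul_comm 2] at h2
  exact Nat.le_of_mul_le_mul_left h2 Nat.card_pos

theorem alt_of_le_img {H : Subgroup G} {Γ : Set Ω} (h : H ≤ stabilizer G Γ) (h2 : 2 ≤ Γ.ncard)
    (h1 : alternatingGroup Γ ≤ img H Γ) : Alt H Γ := by
  refine ⟨h, ?_⟩
  have : Nontrivial Γ := by
    rw [← Finite.one_lt_card_iff_nontrivial, Nat.card_coe_set_eq]; omega
  rw [← card_img h, ← Nat.card_coe_set_eq, ← Nat.card_perm, ← two_mul_nat_card_alternatingGroup]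
  exact Nat.mul_le_mul_left 2 (Subgroup.card_le_of_le h1)

theorem Alt.exists {H : Subgroup G} {Γ : Set Ω} (h : Alt H Γ) {σ : Equiv.Perm Γ}
    (hσ : σ ∈ alternatingGroup Γ) : ∃ g, ∃ hg : g ∈ H, rho G Γ ⟨g, h.1 hg⟩ = σ := by
  obtain ⟨g, hg, rfl⟩ := h.le_img hσ
  exact ⟨g, hg, rfl⟩

theorem Alt.mono {H H' : Subgroup G} {Γ : Set Ω} (h : Alt H Γ) (h1 : H ≤ H')
    (h2 : H' ≤ stabilizer G Γ) : Alt H' Γ :=
  ⟨h2, h.2.trans (Nat.mul_le_mul_left 2 (relIndex_le_of_le_right h1 (relIndex_pos h2).ne'))⟩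

theorem Alt.normal {H N : Subgroup G} {Γ : Set Ω} (h : Alt H Γ) (h5 : 5 ≤ Γ.ncard) (hN : N ≤ H)
    (hn : Nz H N) (hf : ¬ N ≤ fixingSubgroup G Γ) : Alt N Γ := by
  refine alt_of_le_img (hN.trans h.1) (by omega) (alt_le_of_nz (by rwa [Nat.card_coe_set_eq]) ?_ ?_)
  · rintro τ hτ _ ⟨n, hn', rfl⟩
    obtain ⟨g, hg, rfl⟩ := h.exists hτ
    rw [← map_inv, ← map_mul, ← map_mul]
    exact ⟨_, hn g hg n hn', rfl⟩
  · intro e
    apply hf
    intro n hn'
    have : rho G Γ ⟨n, h.1 (hN hn')⟩ ∈ img N Γ := ⟨_, hn', rfl⟩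
    rw [e, mem_bot] at this
    exact rho_eq_one.1 this

theorem Alt.mem_fix_of_comm {H : Subgroup G} {Γ : Set Ω} (h : Alt H Γ) (h5 : 5 ≤ Γ.ncard) {g : G}
    (hg : g ∈ stabilizer G Γ) (hc : ∀ x ∈ H, ⁅x, g⁆ ∈ fixingSubgroup G Γ) :
    g ∈ fixingSubgroup G Γ := by
  rw [← rho_eq_one (g := ⟨g, hg⟩)]
  apply eq_one_of_comm (by rwa [Nat.card_coe_set_eq])
  intro τ hτ
  obtain ⟨x, hx, rfl⟩ := h.exists hτ
  rw [← commutatorElement_eq_one_iff_mul_comm, ← map_commutatorElement, rho_eq_one]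
  exact hc x hx

theorem Alt.not_le_fix {H : Subgroup G} {Γ : Set Ω} (h : Alt H Γ) (h5 : 3 ≤ Γ.ncard) :
    ¬ H ≤ fixingSubgroup G Γ := by
  intro hf
  have h2 := h.2
  rw [relIndex_eq_one.2 hf] at h2
  have : (3 : ℕ).factorial ≤ (Γ.ncard).factorial := Nat.factorial_le h5
  simp [Nat.factorial] at this
  omega

theorem Alt.not_comm {U V : Subgroup G} {Γ : Set Ω} (hU : Alt U Γ) (hV : Alt V Γ) (h5 : 5 ≤ Γ.ncard)
    (hc : ⁅U, V⁆ ≤ fixingSubgroup G Γ) : False :=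
  hV.not_le_fix (by omega) fun _ hg =>
    hU.mem_fix_of_comm h5 (hV.1 hg) fun _ hx => hc (commutator_mem_commutator hx hg)

theorem Alt.inf {H N₁ N₂ : Subgroup G} {Γ : Set Ω} (h1 : Alt N₁ Γ) (h2 : Alt N₂ Γ) (h5 : 5 ≤ Γ.ncard)
    (n1 : Nz H N₁) (n2 : Nz H N₂) (l1 : N₁ ≤ H) (l2 : N₂ ≤ H) : Alt (N₁ ⊓ N₂) Γ :=
  h1.normal h5 inf_le_left ((n1.inf n2).mono l1) fun hf =>
    h1.not_comm h2 h5 ((n1.commutator_le n2 l1 l2).trans hf)

theorem Alt.trans {H : Subgroup G} {Γ : Set Ω} (h : Alt H Γ) (h3 : 3 ≤ Γ.ncard) {x y : Ω}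
    (hx : x ∈ Γ) (hy : y ∈ Γ) : ∃ g ∈ H, g • x = y := by
  have := alternatingGroup.isPretransitive_of_three_le_card Γ (by rwa [Nat.card_coe_set_eq])
  obtain ⟨σ, hσ⟩ := this.exists_smul_eq ⟨x, hx⟩ ⟨y, hy⟩
  obtain ⟨g, hg, e⟩ := h.exists σ.2
  refine ⟨g, hg, ?_⟩
  have := rho_apply Γ ⟨g, h.1 hg⟩ ⟨x, hx⟩
  rw [e] at this
  exact this.symm.trans (congrArg Subtype.val hσ)

theorem relIndex_stabilizer_le {H : Subgroup G} {Γ : Set Ω} (h : H ≤ stabilizer G Γ) {y : Ω}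
    (hy : y ∈ Γ) : (stabilizer G y).relIndex H ≤ Γ.ncard := by
  have : (stabilizer G y).subgroupOf H = stabilizer H y := by ext; rfl
  rw [relIndex, this, index_stabilizer]
  apply Set.ncard_le_ncard _ (Set.toFinite _)
  rintro _ ⟨g, rfl⟩
  exact smul_mem_of_stab (h g.2) hy

theorem stab_diff {H : Subgroup G} {Γ : Set Ω} (h : H ≤ stabilizer G Γ) {y : Ω}
    (hy : H ≤ stabilizer G y) : H ≤ stabilizer G (Γ \ {y}) := by
  intro g hg
  apply mem_stab
  rintro z ⟨hz, hzy⟩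
  refine ⟨smul_mem_of_stab (h hg) hz, fun e => hzy ?_⟩
  have e' : g • z = g • y := e.trans (mem_stabilizer_iff.1 (hy hg)).symm
  exact smul_left_cancel g e'

theorem fix_eq {Γ : Set Ω} {y : Ω} (hy : y ∈ Γ) :
    fixingSubgroup G Γ = stabilizer G y ⊓ fixingSubgroup G (Γ \ {y}) := by
  ext g
  rw [mem_inf, mem_fix, mem_fix, mem_stabilizer_iff]
  constructor
  · exact fun h => ⟨h y hy, fun z hz => h z hz.1⟩
  · rintro ⟨h1, h2⟩ z hz
    by_cases e : z = y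
    · rw [e]; exact h1
    · exact h2 z ⟨hz, e⟩

theorem relIndex_fix_eq {H : Subgroup G} {Γ : Set Ω} {y : Ω} (hy : y ∈ Γ) :
    (fixingSubgroup G Γ).relIndex H =
      (fixingSubgroup G (Γ \ {y})).relIndex (H ⊓ stabilizer G y) * (stabilizer G y).relIndex H := by
  rw [fix_eq hy, inf_comm (stabilizer G y), ← relIndex_inf_mul_relIndex, inf_comm H]

theorem Alt.diff {H : Subgroup G} {Γ : Set Ω} (h : Alt H Γ) {y : Ω} (hy : y ∈ Γ) :
    Alt (H ⊓ stabilizer G y) (Γ \ {y}) := by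
  refine ⟨stab_diff (inf_le_left.trans h.1) inf_le_right, ?_⟩
  have h2 := h.2
  have h3 := relIndex_stabilizer_le h.1 hy
  have h4 : Γ.ncard = (Γ \ {y}).ncard + 1 := (Set.ncard_sdiff_singleton_add_one hy).symm
  rw [relIndex_fix_eq hy, h4, Nat.factorial_succ] at h2
  rw [h4] at h3
  have : ((Γ \ {y}).ncard + 1) * (Γ \ {y}).ncard.factorial ≤ ((Γ \ {y}).ncard + 1) *
      (2 * (fixingSubgroup G (Γ \ {y})).relIndex (H ⊓ stabilizer G y)) := by
    refine h2.trans ?_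
    nlinarith [Nat.zero_le ((fixingSubgroup G (Γ \ {y})).relIndex (H ⊓ stabilizer G y))]
  exact Nat.le_of_mul_le_mul_left this (Nat.succ_pos _)

theorem Alt.inf_fix {H : Subgroup G} {Γ Γ' : Set Ω} (h : Alt H Γ) (h5 : 5 ≤ Γ.ncard)
    (h1 : H ≤ stabilizer G Γ') (hlt : Γ'.ncard < Γ.ncard) : Alt (H ⊓ fixingSubgroup G Γ') Γ := by
  refine h.normal h5 inf_le_left ((Nz.self H).inf (nz_fix h1)) fun hf => ?_
  have h2 : (fixingSubgroup G Γ).relIndex H ≤ (H ⊓ fixingSubgroup G Γ').relIndex H :=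
    relIndex_le_of_le_left hf (by rw [inf_relIndex_left]; exact (relIndex_pos h1).ne')
  rw [inf_relIndex_left] at h2
  have h3 := relIndex_le h1
  have h4 := h.2
  obtain ⟨m, hm⟩ : ∃ m, Γ.ncard = m + 1 := ⟨Γ.ncard - 1, by omega⟩
  have h6 : (Γ'.ncard).factorial ≤ m.factorial := Nat.factorial_le (by omega)
  rw [hm, Nat.factorial_succ] at h4
  have := Nat.factorial_pos m
  have : 5 * m.factorial ≤ (m + 1) * m.factorial := Nat.mul_le_mul_right _ (by omega)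
  omega

theorem Alt.iInf_fix {ι : Type*} {H : Subgroup G} {Γ : Set Ω} (h : Alt H Γ) (h5 : 5 ≤ Γ.ncard)
    (s : Finset ι) (Θ : ι → Set Ω) (h1 : ∀ i ∈ s, H ≤ stabilizer G (Θ i))
    (hlt : ∀ i ∈ s, (Θ i).ncard < Γ.ncard) : Alt (H ⊓ ⨅ i ∈ s, fixingSubgroup G (Θ i)) Γ := by
  induction s using Finset.induction_on with
  | empty => simpa using h
  | insert a s ha ih =>
    rw [Finset.iInf_insert, inf_comm (fixingSubgroup G (Θ a)), ← inf_assoc]
    exact (ih (fun i hi => h1 i (Finset.mem_insert_of_mem hi))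
      (fun i hi => hlt i (Finset.mem_insert_of_mem hi))).inf_fix h5
      (inf_le_left.trans (h1 a (Finset.mem_insert_self _ _))) (hlt a (Finset.mem_insert_self _ _))

theorem Alt.iInf {ι : Type*} {H : Subgroup G} {Γ : Set Ω} (h : Alt H Γ) (h5 : 5 ≤ Γ.ncard)
    (s : Finset ι) (N : ι → Subgroup G) (h1 : ∀ i ∈ s, Alt (H ⊓ N i) Γ)
    (hn : ∀ i ∈ s, Nz H (N i)) : Alt (H ⊓ ⨅ i ∈ s, N i) Γ ∧ Nz H (H ⊓ ⨅ i ∈ s, N i) := by
  induction s using Finset.induction_on with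
  | empty => simpa using ⟨h, Nz.self H⟩
  | insert a s ha ih =>
    obtain ⟨i1, i2⟩ := ih (fun i hi => h1 i (Finset.mem_insert_of_mem hi))
      (fun i hi => hn i (Finset.mem_insert_of_mem hi))
    have e : H ⊓ (N a ⊓ ⨅ i ∈ s, N i) = (H ⊓ N a) ⊓ (H ⊓ ⨅ i ∈ s, N i) := inf_inf_distrib_left _ _ _
    have n1 : Nz H (H ⊓ N a) := (Nz.self H).inf (hn a (Finset.mem_insert_self _ _))
    rw [Finset.iInf_insert, e]
    exact ⟨(h1 a (Finset.mem_insert_self _ _)).inf i1 h5 n1 i2 inf_le_left inf_le_left, n1.inf i2⟩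

end H26.Knapp
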