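import Mathlib
import Cfsg.Agent.Base
import Cfsg.Agent.Lib.Perm.KnappA

/-! Orbitals whose subconstituent contains the alternating group. -/

set_option autoImplicit false
set_option linter.unusedSectionVars false

namespace H26.Knapp

open MulAction Subgroup
open scoped Pointwise commutatorElement Classical

variable {G Ω : Type*} [Group G] [MulAction G Ω]

/-- out-neighbours -/
def Nb (O : Ω → Ω → Prop) (x : Ω) : Set Ω := {y | O x y}

/-- kernel of the point stabiliser on the out-neighbours -/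
def K (G : Type*) [Group G] [MulAction G Ω] (O : Ω → Ω → Prop) (x : Ω) : Subgroup G :=
  stabilizer G x ⊓ fixingSubgroup G (Nb O x)

theorem mem_K {O : Ω → Ω → Prop} {x : Ω} {g : G} :
    g ∈ K G O x ↔ g • x = x ∧ ∀ y, O x y → g • y = y := by
  rw [K, mem_inf, mem_fix, mem_stabilizer_iff]; rfl

theorem K_le {O : Ω → Ω → Prop} {x : Ω} : K G O x ≤ stabilizer G x := inf_le_left

theorem K_le' {O : Ω → Ω → Prop} {x y : Ω} (h : O x y) : K G O x ≤ stabilizer G y :=
  fun _ hg => (mem_K.1 hg).2 y h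

theorem mem_K_of {O : Ω → Ω → Prop} {x y : Ω} {g : G} (h1 : g • x = x) (h2 : g • y = y)
    (h3 : g ∈ fixingSubgroup G (Nb O x \ {y})) : g ∈ K G O x := by
  refine mem_K.2 ⟨h1, fun z hz => ?_⟩
  by_cases e : z = y
  · rw [e]; exact h2
  · exact mem_fix.1 h3 z ⟨hz, e⟩

structure Hyp (G : Type*) [Group G] [MulAction G Ω] (O : Ω → Ω → Prop) (d : ℕ) : Prop where
  inv : ∀ (g : G) x y, O x y → O (g • x) (g • y)
  tr : IsPretransitive G Ω
  c1 : ∀ x, (Nb O x).ncard = d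
  c2 : ∀ y, (Nb (flip O) y).ncard = d
  d6 : 6 ≤ d
  prim : ∀ x y, O x y → ∀ N : Subgroup G, N ≤ stabilizer G x → N ≤ stabilizer G y →
    Nz (stabilizer G x) N → Nz (stabilizer G y) N → N = ⊥
  tw : (∀ x, ∀ g ∈ K G O x, (∀ y, O x y → g ∈ K G (flip O) y) → g = 1) ∨
    (∀ y, ∀ g ∈ K G (flip O) y, (∀ x, O x y → g ∈ K G O x) → g = 1)

variable {O : Ω → Ω → Prop} {d : ℕ}

theorem Hyp.flip (h : Hyp G O d) : Hyp G (flip O) d :=
  ⟨fun g x y => h.inv g y x, h.tr, h.c2, h.c1, h.d6,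
    fun x y hxy N h1 h2 h3 h4 => h.prim y x hxy N h2 h1 h4 h3, h.tw.symm⟩

variable [Finite Ω] [Finite G]

theorem Hyp.stab_le (h : Hyp G O d) (x : Ω) : stabilizer G x ≤ stabilizer G (Nb O x) := by
  intro g hg
  apply mem_stab
  intro y hy
  have := h.inv g x y hy
  rwa [mem_stabilizer_iff.1 hg] at this

theorem Hyp.stab_le2 (h : Hyp G O d) {x y : Ω} {H : Subgroup G} (h1 : H ≤ stabilizer G x)
    (h2 : H ≤ stabilizer G y) : H ≤ stabilizer G (Nb O x \ {y}) :=
  stab_diff (h1.trans (h.stab_le x)) h2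

theorem Hyp.conj_K (h : Hyp G O d) {x : Ω} {k : G} (hk : k ∈ K G O x) (g : G) :
    g * k * g⁻¹ ∈ K G O (g • x) := by
  rw [mem_K] at hk ⊢
  refine ⟨by rw [mul_smul, mul_smul, inv_smul_smul, hk.1], fun y hy => ?_⟩
  have := h.inv g⁻¹ _ _ hy
  rw [inv_smul_smul] at this
  rw [mul_smul, mul_smul, hk.2 _ this, smul_inv_smul]

theorem Hyp.nz_K (h : Hyp G O d) (x : Ω) : Nz (stabilizer G x) (K G O x) := by
  intro g hg k hk
  have := h.conj_K hk g
  rwa [mem_stabilizer_iff.1 hg] at this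

theorem Hyp.card_K_le (h : Hyp G O d) (x y : Ω) : Nat.card (K G O x) ≤ Nat.card (K G O y) := by
  obtain ⟨g, rfl⟩ := h.tr.exists_smul_eq x y
  refine Nat.card_le_card_of_injective (fun k => ⟨_, h.conj_K k.2 g⟩) fun k k' e => ?_
  have := congrArg Subtype.val e
  simp only [mul_left_inj, mul_right_inj] at this
  exact Subtype.ext this

theorem Hyp.card_diff (h : Hyp G O d) {x y : Ω} (hxy : O x y) : (Nb O x \ {y}).ncard = d - 1 := by
  rw [← h.c1 x, Set.ncard_sdiff_singleton_of_mem (s := Nb O x) hxy]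

theorem Hyp.exists_nb (h : Hyp G O d) (x : Ω) : ∃ y, O x y := by
  have : 0 < (Nb O x).ncard := by rw [h.c1]; have := h.d6; omega
  exact (Set.ncard_pos (Set.toFinite _)).1 this

theorem Hyp.K_flip_le (h : Hyp G O d) (hA : ∀ x, Alt (stabilizer G x) (Nb O x)) (x : Ω) :
    K G (_root_.flip O) x ≤ K G O x := by
  have d6 := h.d6
  by_contra hh
  have h5 : 5 ≤ (Nb O x).ncard := by rw [h.c1]; omega
  have h1 : Alt (K G (_root_.flip O) x) (Nb O x) :=
    (hA x).normal h5 K_le (h.flip.nz_K x) fun hf => hh (le_inf K_le hf)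
  rcases h.tw with tw | tw
  · obtain ⟨a, ha⟩ := h.flip.exists_nb x
    have ha' : O a x := ha
    have h2 := h1.inf_fix (Γ' := Nb O a \ {x}) h5 (h.stab_le2 (K_le' ha) K_le)
      (by rw [h.card_diff ha', h.c1]; omega)
    have hle : K G (_root_.flip O) x ⊓ fixingSubgroup G (Nb O a \ {x}) ≤ K G O a :=
      fun g hg => mem_K_of (K_le' ha hg.1) (K_le hg.1) hg.2
    have h3 := h2.iInf_fix h5 (Set.toFinite (Nb O a)).toFinset (fun y => Nb (_root_.flip O) y \ {a})
      (fun y hy => h.flip.stab_le2 (hle.trans (K_le' ((Set.Finite.mem_toFinset _).1 hy : y ∈ Nb O a))) (hle.trans K_le))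
      (fun y hy => by
        rw [h.flip.card_diff (x := y) (y := a) ((Set.Finite.mem_toFinset _).1 hy : y ∈ Nb O a), h.c1]; omega)
    apply h3.not_le_fix (by omega)
    intro g hg
    have : g = 1 := tw a g (hle hg.1) fun y hy => mem_K_of (K_le' hy (hle hg.1)) (K_le (hle hg.1))
      (mem_iInf.1 (mem_iInf.1 (mem_inf.1 hg).2 y) ((Set.Finite.mem_toFinset _).2 hy))
    rw [this]; exact one_mem _
  · have h3 := h1.iInf_fix h5 (Set.toFinite (Nb (_root_.flip O) x)).toFinset (fun a => Nb O a \ {x})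
      (fun a ha => h.stab_le2 (K_le' (O := _root_.flip O) ((Set.Finite.mem_toFinset _).1 ha : a ∈ Nb _ x)) K_le)
      (fun a ha => by
        rw [h.card_diff (x := a) (y := x) ((Set.Finite.mem_toFinset _).1 ha : a ∈ Nb (_root_.flip O) x), h.c1]; omega)
    apply h3.not_le_fix (by omega)
    intro g hg
    have : g = 1 := tw x g hg.1 fun a ha => mem_K_of (K_le' (O := _root_.flip O) ha hg.1) (K_le hg.1)
      (mem_iInf.1 (mem_iInf.1 (mem_inf.1 hg).2 a) ((Set.Finite.mem_toFinset _).2 ha))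
    rw [this]; exact one_mem _

theorem Hyp.alt_flip (h : Hyp G O d) (hA : ∀ x, Alt (stabilizer G x) (Nb O x)) (x : Ω) :
    Alt (stabilizer G x) (Nb (_root_.flip O) x) := by
  refine ⟨h.flip.stab_le x, ?_⟩
  have h1 := (hA x).2
  rw [h.c1] at h1
  rw [h.c2]
  refine h1.trans (Nat.mul_le_mul_left 2 ?_)
  rw [← inf_relIndex_left (stabilizer G x), ← inf_relIndex_left (stabilizer G x) (fixingSubgroup G _)]
  exact relIndex_le_of_le_left (h.K_flip_le hA x) index_ne_zero_of_finite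

theorem Hyp.K_eq (h : Hyp G O d) (hA : ∀ x, Alt (stabilizer G x) (Nb O x)) (x : Ω) :
    K G O x = K G (_root_.flip O) x :=
  le_antisymm (h.flip.K_flip_le (h.alt_flip hA) x) (h.K_flip_le hA x)

theorem Hyp.altK (h : Hyp G O d) (hA : ∀ x, Alt (stabilizer G x) (Nb O x)) (hne : ∀ x, K G O x ≠ ⊥)
    {a b : Ω} (hab : O a b) : Alt (K G (_root_.flip O) b) (Nb O a \ {b}) := by
  have d6 := h.d6
  refine ((hA a).diff hab).normal (by rw [h.card_diff hab]; omega)
    (le_inf (K_le' (O := _root_.flip O) hab) K_le) ((h.flip.nz_K b).mono inf_le_right) fun hf => ?_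
  have h1 : K G (_root_.flip O) b ≤ K G O a := fun g hg =>
    mem_K_of (K_le' (O := _root_.flip O) hab hg) (K_le hg) (hf hg)
  have h2 : K G (_root_.flip O) b = K G O a :=
    eq_of_le_of_card_ge h1 (by rw [← h.K_eq hA b]; exact h.card_K_le a b)
  exact hne a (h.prim a b hab _ K_le (K_le' hab) (h.nz_K a) (h2 ▸ h.flip.nz_K b))

theorem Hyp.inf_eq_bot_aux (h : Hyp G O d) (hA : ∀ x, Alt (stabilizer G x) (Nb O x))
    (hne : ∀ x, K G O x ≠ ⊥)
    (tw : ∀ x, ∀ g ∈ K G O x, (∀ y, O x y → g ∈ K G (_root_.flip O) y) → g = 1)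
    {a b : Ω} (hab : O a b) : K G O a ⊓ K G (_root_.flip O) b = ⊥ := by
  have d6 := h.d6
  have hA' := h.alt_flip hA
  have hK := h.K_eq hA
  have hne' : ∀ x, K G (_root_.flip O) x ≠ ⊥ := fun x => hK x ▸ hne x
  have altK' : ∀ {x y : Ω}, O x y → Alt (K G O x) (Nb (_root_.flip O) y \ {x}) :=
    fun hxy => h.flip.altK hA' hne' hxy
  have c5 : ∀ {x y : Ω}, O x y → 5 ≤ (Nb (_root_.flip O) y \ {x}).ncard := fun {x y} hxy => by
    rw [h.flip.card_diff (x := y) (y := x) hxy]; omega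
  have c5' : ∀ {x y : Ω}, O x y → 5 ≤ (Nb O x \ {y}).ncard := fun {x y} hxy => by
    rw [h.card_diff hxy]; omega
  by_contra hE
  obtain ⟨⟨e, he⟩, he1⟩ := (Subgroup.ne_bot_iff_exists_ne_one).1 hE
  have he1' : e ≠ 1 := fun h' => he1 (Subtype.ext h')
  obtain ⟨c₀, hc₀, hec⟩ : ∃ c, O a c ∧ e ∉ K G (_root_.flip O) c := by
    by_contra hh
    push Not at hh
    exact he1' (tw a e he.1 hh)
  have hcb : c₀ ≠ b := fun h' => hec (h' ▸ he.2)
  have key : ∀ y y', O a y → O a y' → y ≠ y' →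
      Alt (K G O a ⊓ K G (_root_.flip O) y) (Nb (_root_.flip O) y' \ {a}) := by
    intro y y' hy hy' hyy
    obtain ⟨g₁, hg₁, e₁⟩ := (hA a).trans (by rw [h.c1]; omega) hab hy
    have h1 : g₁ • c₀ ∈ Nb O a \ {y} :=
      ⟨smul_mem_of_stab (h.stab_le a hg₁) hc₀, fun h' => hcb (smul_left_cancel g₁ (h'.trans e₁.symm))⟩
    obtain ⟨g₂, hg₂, e₂⟩ := ((hA a).diff hy).trans (by have := c5' hy; omega) h1 ⟨hy', hyy.symm⟩
    have ga : (g₂ * g₁) • a = a := mem_stabilizer_iff.1 (mul_mem hg₂.1 hg₁)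
    have gb : (g₂ * g₁) • b = y := by rw [mul_smul, e₁]; exact hg₂.2
    have gc : (g₂ * g₁) • c₀ = y' := by rw [mul_smul, e₂]
    refine (altK' hy').normal (c5 hy') inf_le_left
      ((Nz.self _).inf ((h.flip.nz_K y).mono (K_le' hy))) fun hf => hec ?_
    have m1 := h.conj_K he.1 (g₂ * g₁)
    have m2 := h.flip.conj_K he.2 (g₂ * g₁)
    rw [ga] at m1; rw [gb] at m2
    have m3 : (g₂ * g₁) * e * (g₂ * g₁)⁻¹ ∈ K G (_root_.flip O) y' :=
      mem_K_of (K_le' hy' m1) (K_le m1) (hf ⟨m1, m2⟩)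
    have m4 := h.flip.conj_K m3 (g₂ * g₁)⁻¹
    rw [← gc, inv_smul_smul] at m4
    convert m4 using 1; group
  let U : Ω → Subgroup G := fun c =>
    K G O a ⊓ ⨅ y ∈ (Set.toFinite (Nb O a)).toFinset.erase c, K G (_root_.flip O) y
  have memU : ∀ c g, g ∈ U c ↔ g ∈ K G O a ∧ ∀ y, O a y → y ≠ c → g ∈ K G (_root_.flip O) y := by
    intro c g
    simp only [U, mem_inf, mem_iInf, Finset.mem_erase, Set.Finite.mem_toFinset]
    exact ⟨fun h' => ⟨h'.1, fun y h1 h2 => h'.2 y ⟨h2, h1⟩⟩, fun h' => ⟨h'.1, fun y h1 => h'.2 y h1.2 h1.1⟩⟩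
  have hU : ∀ c, O a c → Alt (U c) (Nb (_root_.flip O) c \ {a}) ∧ Nz (K G O a) (U c) := by
    intro c hc
    refine (altK' hc).iInf (c5 hc) _ _ (fun y hy => ?_) (fun y hy => ?_)
    · simp only [Finset.mem_erase, Set.Finite.mem_toFinset] at hy
      exact key y c hy.2 hc hy.1
    · simp only [Finset.mem_erase, Set.Finite.mem_toFinset] at hy
      exact (h.flip.nz_K y).mono (K_le' hy.2)
  obtain ⟨c, hc, c', hc', hcc⟩ : ∃ c ∈ Nb O a \ {b}, ∃ c' ∈ Nb O a \ {b}, c ≠ c' :=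
    (Set.one_lt_ncard (Set.toFinite _)).1 (by have := c5' hab; omega)
  have hUb : ∀ c ∈ Nb O a \ {b}, U c ≤ K G O a ⊓ K G (_root_.flip O) b := fun c hc g hg =>
    ⟨((memU c g).1 hg).1, ((memU c g).1 hg).2 b hab fun e => hc.2 e.symm⟩
  obtain ⟨u, hu, hu1⟩ : ∃ u ∈ U c, u ≠ 1 := by
    by_contra hh
    push Not at hh
    apply (hU c hc.1).1.not_le_fix (by have := c5 hc.1; omega)
    intro g hg; rw [hh g hg]; exact one_mem _
  obtain ⟨x, hx, hux⟩ : ∃ x, O b x ∧ u ∉ K G (_root_.flip O) x := by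
    by_contra hh
    push Not at hh
    exact hu1 (tw b u (hK b ▸ (hUb c hc hu).2) hh)
  obtain ⟨k, hk, hkc⟩ := (h.altK hA hne hab).trans (by have := c5' hab; omega) hc hc'
  have ka : k • a = a := K_le' (O := _root_.flip O) hab hk
  have kx : k • x = x := K_le' hx (hK b ▸ hk)
  have hu' : k * u * k⁻¹ ∈ U c' := by
    rw [memU] at hu ⊢
    refine ⟨by have := h.conj_K hu.1 k; rwa [ka] at this, fun y hy hyc => ?_⟩
    have h1 : O a (k⁻¹ • y) := by
      have := h.inv k⁻¹ _ _ hy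
      rwa [inv_smul_eq_iff.2 ka.symm] at this
    have := h.flip.conj_K (hu.2 _ h1 fun e => hyc (by rw [← hkc, ← e, smul_inv_smul])) k
    rwa [smul_inv_smul] at this
  have hux' : k * u * k⁻¹ ∉ K G (_root_.flip O) x := fun h' => hux (by
    have := h.flip.conj_K h' k⁻¹
    rw [inv_smul_eq_iff.2 kx.symm] at this
    convert this using 1; group)
  have nf : ∀ g ∈ K G O a ⊓ K G (_root_.flip O) b, g ∉ K G (_root_.flip O) x →
      g ∉ fixingSubgroup G (Nb (_root_.flip O) x \ {b}) := fun g hg h1 h2 =>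
    h1 (mem_K_of (K_le' hx (hK b ▸ hg.2)) (K_le hg.2) h2)
  have aE : Alt (K G O a ⊓ K G (_root_.flip O) b) (Nb (_root_.flip O) x \ {b}) := by
    refine (altK' hx).normal (c5 hx) (hK b ▸ inf_le_right) ?_ fun hf => nf u (hUb c hc hu) hux
      (hf (hUb c hc hu))
    rw [hK b]
    exact ((h.nz_K a).mono (K_le' (O := _root_.flip O) hab)).inf (Nz.self _)
  have a1 : Alt (U c) (Nb (_root_.flip O) x \ {b}) :=
    aE.normal (c5 hx) (hUb c hc) ((hU c hc.1).2.mono inf_le_left) fun hf =>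
      nf u (hUb c hc hu) hux (hf hu)
  have a2 : Alt (U c') (Nb (_root_.flip O) x \ {b}) :=
    aE.normal (c5 hx) (hUb c' hc') ((hU c' hc'.1).2.mono inf_le_left) fun hf =>
      nf _ (hUb c' hc' hu') hux' (hf hu')
  refine a1.not_comm a2 (c5 hx) ((Nz.commutator_le (hU c hc.1).2 (hU c' hc'.1).2 inf_le_left
    inf_le_left).trans fun g hg => ?_)
  have : g = 1 := tw a g hg.1.1 fun y hy => by
    by_cases e : y = c
    · exact ((memU c' g).1 hg.2).2 y hy (e ▸ hcc)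
    · exact ((memU c g).1 hg.1).2 y hy e
  rw [this]; exact one_mem _

theorem Hyp.inf_eq_bot (h : Hyp G O d) (hA : ∀ x, Alt (stabilizer G x) (Nb O x))
    (hne : ∀ x, K G O x ≠ ⊥) {a b : Ω} (hab : O a b) : K G O a ⊓ K G (_root_.flip O) b = ⊥ := by
  rcases h.tw with tw | tw
  · exact h.inf_eq_bot_aux hA hne tw hab
  · rw [inf_comm]
    exact h.flip.inf_eq_bot_aux (h.alt_flip hA) (fun x => h.K_eq hA x ▸ hne x) tw hab

end H26.Knapp
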