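import Mathlib

/-! Scott's lemma for two operators and Ree's inequality for permutations. -/

set_option autoImplicit false
set_option linter.unusedSectionVars false
set_option linter.style.haveILetI false

namespace H85.Ree

open Module LinearMap

/-- Scott's lemma for two generators. -/
theorem scott {K V : Type*} [Field K] [AddCommGroup V] [Module K V] [FiniteDimensional K V]
    (X Y : Module.End K V) :
    finrank K (ker (X - 1)) + finrank K (ker (Y - 1)) + finrank K (ker (Y * X - 1)) +
      finrank K (range (X - 1) ⊔ range (Y - 1) : Submodule K V) ≤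
      2 * finrank K V + finrank K (ker (X - 1) ⊓ ker (Y - 1) : Submodule K V) := by
  have h1 := finrank_range_add_finrank_ker (X - 1)
  have h2 := finrank_range_add_finrank_ker (Y - 1)
  have h3 := Submodule.finrank_sup_add_finrank_inf_eq (range (X - 1)) (range (Y - 1))
  let f := (X - 1).domRestrict (ker (Y * X - 1))
  have h4 := finrank_range_add_finrank_ker f
  have hC : ∀ v : ker (Y * X - 1), Y (X v) = v := fun v => by
    have := v.2
    rw [mem_ker] at this
    exact sub_eq_zero.1 this
  have h5 : range f ≤ range (X - 1) ⊓ range (Y - 1) := by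
    rintro _ ⟨v, rfl⟩
    refine ⟨⟨v, rfl⟩, ⟨-X v, ?_⟩⟩
    simp [f, hC v, neg_add_eq_sub]
  have h6 : (ker f).map (ker (Y * X - 1)).subtype ≤ ker (X - 1) ⊓ ker (Y - 1) := by
    rintro _ ⟨v, hv, rfl⟩
    have hv' : X v = v := sub_eq_zero.1 (show (X - 1) (v : V) = 0 from hv)
    refine ⟨hv, ?_⟩
    have := hC v
    rw [hv'] at this
    exact sub_eq_zero.2 this
  have h7 := Submodule.finrank_mono h5
  have h8 := Submodule.finrank_mono h6
  rw [Submodule.finrank_map_subtype_eq] at h8
  omega

variable {α : Type*} [Fintype α] [DecidableEq α]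

/-- the operator of a permutation on functions -/
noncomputable def T (g : Equiv.Perm α) : Module.End ℚ (α → ℚ) := LinearMap.funLeft ℚ ℚ g

theorem T_apply (g : Equiv.Perm α) (f : α → ℚ) (a : α) : T g f a = f (g a) := rfl

theorem T_mul (g h : Equiv.Perm α) : T h * T g = T (g * h) := rfl

theorem mem_ker_T {g : Equiv.Perm α} {f : α → ℚ} : f ∈ ker (T g - 1) ↔ ∀ a, f (g a) = f a := by
  rw [mem_ker, LinearMap.sub_apply, sub_eq_zero, funext_iff]
  rfl

/-- dimension of the fixed space -/
noncomputable def d (g : Equiv.Perm α) : ℕ := finrank ℚ (ker (T g - 1))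

theorem d_inv (g : Equiv.Perm α) : d g⁻¹ = d g := by
  have : ker (T g⁻¹ - 1) = ker (T g - 1) := by
    ext f
    rw [mem_ker_T, mem_ker_T]
    exact ⟨fun h a => by simpa using (h (g a)).symm, fun h a => by simpa using (h (g⁻¹ a)).symm⟩
  unfold d
  rw [this]

/-- Ree's inequality; `S` meets every orbit. -/
theorem ree (x y : Equiv.Perm α) (S : Finset α)
    (hS : ∀ a, ∃ g ∈ Subgroup.closure ({x, y} : Set (Equiv.Perm α)), ∃ s ∈ S, g s = a) :
    d x + d y + d (x * y) ≤ Fintype.card α + 2 * S.card := by
  have h := scott (T x) (T y)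
  rw [T_mul, Module.finrank_fintype_fun_eq_card] at h
  have h1 : finrank ℚ (ker (T x - 1) ⊓ ker (T y - 1) : Submodule ℚ (α → ℚ)) ≤ S.card := by
    let φ : (ker (T x - 1) ⊓ ker (T y - 1) : Submodule ℚ (α → ℚ)) →ₗ[ℚ] (S → ℚ) :=
      (LinearMap.funLeft ℚ ℚ (Subtype.val : S → α)).comp (Submodule.subtype _)
    have hφ : Function.Injective φ := by
      rw [← LinearMap.ker_eq_bot, Submodule.eq_bot_iff]
      rintro ⟨f, hx, hy⟩ hf
      have inv : ∀ g ∈ Subgroup.closure ({x, y} : Set (Equiv.Perm α)), ∀ a, f (g a) = f a := by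
        intro g hg
        induction hg using Subgroup.closure_induction with
        | mem g hg =>
          rcases hg with rfl | rfl
          exacts [mem_ker_T.1 hx, mem_ker_T.1 hy]
        | one => exact fun _ => rfl
        | mul g h _ _ hg hh => exact fun a => (hg (h a)).trans (hh a)
        | inv g _ hg => exact fun a => by simpa using (hg (g⁻¹ a)).symm
      ext a
      obtain ⟨g, hg, s, hs, rfl⟩ := hS a
      exact (inv g hg s).trans (congrFun hf ⟨s, hs⟩)
    have := LinearMap.finrank_le_finrank_of_injective hφ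
    rwa [Module.finrank_fintype_fun_eq_card, Fintype.card_coe] at this
  have h2 : Fintype.card α ≤
      finrank ℚ (range (T x - 1) ⊔ range (T y - 1) : Submodule ℚ (α → ℚ)) + S.card := by
    set W : Submodule ℚ (α → ℚ) := range (T x - 1) ⊔ range (T y - 1) with hW
    let e : α → α → ℚ := fun a => Pi.single a 1
    have he : ∀ (g : Equiv.Perm α) a, e a - e (g a) ∈ range (T g - 1) := fun g a =>
      ⟨e (g a), by
        ext b
        simp only [e, LinearMap.sub_apply, Pi.sub_apply, T_apply, Module.End.one_apply, Pi.single_apply,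
          EmbeddingLike.apply_eq_iff_eq]⟩
    have inv : ∀ g ∈ Subgroup.closure ({x, y} : Set (Equiv.Perm α)), ∀ a, e a - e (g a) ∈ W := by
      intro g hg
      induction hg using Subgroup.closure_induction with
      | mem g hg =>
        rcases hg with rfl | rfl
        exacts [fun a => Submodule.mem_sup_left (he _ a), fun a => Submodule.mem_sup_right (he _ a)]
      | one => exact fun a => by simp
      | mul g h _ _ hg hh => exact fun a => by simpa using W.add_mem (hh a) (hg (h a))
      | inv g _ hg => exact fun a => by simpa using W.neg_mem (hg (g⁻¹ a))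
    have htop : W ⊔ Submodule.span ℚ (S.image e : Set (α → ℚ)) = ⊤ := by
      rw [eq_top_iff, ← (Pi.basisFun ℚ α).span_eq, Submodule.span_le]
      rintro _ ⟨a, rfl⟩
      obtain ⟨g, hg, s, hs, rfl⟩ := hS a
      have : (Pi.basisFun ℚ α) (g s) = -(e s - e (g s)) + e s := by simp [e]
      rw [this]
      exact Submodule.add_mem_sup (W.neg_mem (inv g hg s))
        (Submodule.subset_span (Finset.mem_coe.2 (Finset.mem_image_of_mem e hs)))
    have h3 := Submodule.finrank_add_le_finrank_add_finrank W (Submodule.span ℚ (S.image e : Set (α → ℚ)))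
    rw [htop, finrank_top, Module.finrank_fintype_fun_eq_card] at h3
    have h4 := finrank_span_finset_le_card (R := ℚ) (S.image e)
    have h5 := Finset.card_image_le (s := S) (f := e)
    unfold Set.finrank at h4
    omega
  unfold d
  omega

/-- Lower bound for the fixed space from the number of fixed points. -/
theorem le_d (g : Equiv.Perm α) (F : Finset α) (hF : ∀ a ∈ F, g a = a) :
    Fintype.card α + (orderOf g - 1) * F.card ≤ d g * orderOf g := by
  classical
  let H := Subgroup.zpowers g
  let Ω := Quotient (MulAction.orbitRel H α)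
  have h1 : Fintype.card Ω ≤ d g := by
    let ψ : (Ω → ℚ) →ₗ[ℚ] ker (T g - 1) :=
      (LinearMap.funLeft ℚ ℚ (Quotient.mk'' : α → Ω)).codRestrict _ fun f => mem_ker_T.2 fun a =>
        congrArg f (Quotient.sound' ⟨⟨g, Subgroup.mem_zpowers g⟩, rfl⟩)
    have hψ : Function.Injective ψ := fun f f' e =>
      LinearMap.funLeft_injective_of_surjective ℚ ℚ _ Quotient.mk''_surjective (congrArg Subtype.val e)
    have := LinearMap.finrank_le_finrank_of_injective hψ
    rwa [Module.finrank_fintype_fun_eq_card] at this
  have h2 := MulAction.sum_card_fixedBy_eq_card_orbits_mul_card_group H α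
  have h3 : Fintype.card H = orderOf g := Fintype.card_zpowers
  rw [← Finset.add_sum_erase _ _ (Finset.mem_univ (1 : H)), h3] at h2
  have h4 : Fintype.card (MulAction.fixedBy α (1 : H)) = Fintype.card α := by
    simp [MulAction.fixedBy_one_eq_univ]
  have h5 : (Finset.univ.erase (1 : H)).card • F.card ≤
      ∑ a ∈ Finset.univ.erase (1 : H), Fintype.card (MulAction.fixedBy α a) := by
    refine Finset.card_nsmul_le_sum _ _ _ fun a _ => ?_
    rw [← Fintype.card_coe]
    refine Fintype.card_le_of_injective (fun b : F => (⟨b, ?_⟩ : MulAction.fixedBy α a))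
      fun b c e => Subtype.ext (by simpa using e)
    obtain ⟨_, k, rfl⟩ := a
    exact Equiv.Perm.zpow_apply_eq_self_of_apply_eq_self (hF b b.2) k
  rw [Finset.card_erase_of_mem (Finset.mem_univ _), Finset.card_univ, h3, smul_eq_mul] at h5
  calc _ ≤ _ := Nat.add_le_add_left h5 _
    _ = _ := by rw [← h4, h2]
    _ ≤ _ := Nat.mul_le_mul_right _ (by convert h1)

end H85.Ree
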